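import Mathlib

/-!
# The degrees of the faithful characters of a double cover of `PSL₃(4)`: arithmetic (helper834, task 2535)
-/

set_option autoImplicit false

namespace Cfsg.Agent.H834.T3

/-- exhaustive search -/
def go : List (ℕ × ℕ × ℕ × ℕ) → ℕ → ℕ → ℕ → ℕ → Bool
  | [], rem, _, b7, b3 => !(Nat.beq (rem % 100) 0) ||
      ([0, 1, 2, 3, 4, 5, 6, 7].all fun y => Nat.blt rem (400 * y) || Nat.blt b7 ((rem - 400 * y) / 100 + y) ||
        Nat.blt b3 ((rem - 400 * y) / 100 + y))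
  | (s, f5, f7, f3) :: l, rem, b5, b7, b3 => [0, 1, 2, 3, 4, 5].all fun k =>
      Nat.blt rem (k * s) || Nat.blt b5 (k * f5) || Nat.blt b7 (k * f7) || Nat.blt b3 (k * f3) ||
        go l (rem - k * s) (b5 - k * f5) (b7 - k * f7) (b3 - k * f3)

/-- the solutions -/
def Sol : List (ℕ × ℕ × ℕ × ℕ) → ℕ → ℕ → ℕ → ℕ → Prop
  | [], rem, _, b7, b3 => ∃ x y, y ≤ 7 ∧ 100 * x + 400 * y = rem ∧ x + y ≤ b7 ∧ x + y ≤ b3
  | (s, f5, f7, f3) :: l, rem, b5, b7, b3 => ∃ k rem' b5' b7' b3', k ≤ 5 ∧ rem = k * s + rem' ∧ b5 = k * f5 + b5' ∧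
      b7 = k * f7 + b7' ∧ b3 = k * f3 + b3' ∧ Sol l rem' b5' b7' b3'

theorem not_blt {a b : ℕ} (h : b ≤ a) : Nat.blt a b = false := by
  rw [← Bool.not_eq_true]
  intro h1
  have : a < b := Nat.le_of_ble_eq_true h1
  omega

theorem go_sound : ∀ (l : List (ℕ × ℕ × ℕ × ℕ)) (rem b5 b7 b3 : ℕ), go l rem b5 b7 b3 = true → ¬ Sol l rem b5 b7 b3
  | [], rem, b5, b7, b3, h => by
    rintro ⟨x, y, hy, hxy, h7, h3⟩
    rw [go, Bool.or_eq_true] at h
    rcases h with h | h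
    · have h1 : rem % 100 = 0 := by omega
      rw [h1] at h
      exact absurd h (by decide)
    · rw [List.all_eq_true] at h
      have h1 := h y (by simp only [List.mem_cons, List.not_mem_nil, or_false]; omega)
      have h2 : (rem - 400 * y) / 100 = x := by omega
      rw [h2, not_blt (show 400 * y ≤ rem by omega), not_blt h7, not_blt h3] at h1
      exact absurd h1 (by decide)
  | (s, f5, f7, f3) :: l, rem, b5, b7, b3, h => by
    rintro ⟨k, rem', b5', b7', b3', hk, h0, h5, h7, h3, hs⟩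
    rw [go, List.all_eq_true] at h
    have h1 := h k (by simp only [List.mem_cons, List.not_mem_nil, or_false]; omega)
    rw [not_blt (h0 ▸ Nat.le_add_right _ _), not_blt (h5 ▸ Nat.le_add_right _ _), not_blt (h7 ▸ Nat.le_add_right _ _),
      not_blt (h3 ▸ Nat.le_add_right _ _), Bool.false_or, Bool.false_or, Bool.false_or, Bool.false_or, h0, h5, h7, h3,
      Nat.add_sub_cancel_left, Nat.add_sub_cancel_left, Nat.add_sub_cancel_left, Nat.add_sub_cancel_left] at h1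
    exact go_sound l _ _ _ _ h1 hs

/-- the data -/
def dat : List (ℕ × ℕ × ℕ × ℕ) := [(7056, 1, 0, 0), (4096, 1, 1, 1), (1764, 1, 0, 0), (1024, 1, 1, 1), (784, 1, 0, 1),
  (256, 1, 1, 1), (196, 1, 0, 1), (144, 1, 1, 0), (64, 1, 1, 1), (36, 1, 1, 0)]

set_option maxRecDepth 100000 in
theorem go_dat : go dat 20160 5 7 9 = true := by decide +kernel

set_option maxHeartbeats 2000000 in
theorem arith {a6 a8 a10 a12 a14 a16 a20 a28 a32 a42 a64 a84 : ℕ}
    (h : 36 * a6 + 64 * a8 + 100 * a10 + 144 * a12 + 196 * a14 + 256 * a16 + 400 * a20 + 784 * a28 + 1024 * a32 +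
      1764 * a42 + 4096 * a64 + 7056 * a84 = 20160)
    (h5 : a6 + a8 + a12 + a14 + a16 + a28 + a32 + a42 + a64 + a84 ≤ 5)
    (h7 : a6 + a8 + a10 + a12 + a16 + a20 + a32 + a64 ≤ 7)
    (h3 : a8 + a10 + a14 + a16 + a20 + a28 + a32 + a64 ≤ 9) : False := by
  obtain ⟨s5, h5⟩ := Nat.exists_eq_add_of_le h5
  obtain ⟨s7, h7⟩ := Nat.exists_eq_add_of_le h7
  obtain ⟨s3, h3⟩ := Nat.exists_eq_add_of_le h3
  apply go_sound _ _ _ _ _ go_dat
  rw [dat]
  refine ⟨a84, 4096 * a64 + 1764 * a42 + 1024 * a32 + 784 * a28 + 256 * a16 + 196 * a14 + 144 * a12 + 64 * a8 + 36 * a6 + (100 * a10 + 400 * a20),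
    1 * a64 + 1 * a42 + 1 * a32 + 1 * a28 + 1 * a16 + 1 * a14 + 1 * a12 + 1 * a8 + 1 * a6 + s5,
    1 * a64 + 0 * a42 + 1 * a32 + 0 * a28 + 1 * a16 + 0 * a14 + 1 * a12 + 1 * a8 + 1 * a6 + (a10 + a20 + s7),
    1 * a64 + 0 * a42 + 1 * a32 + 1 * a28 + 1 * a16 + 1 * a14 + 0 * a12 + 1 * a8 + 0 * a6 + (a10 + a20 + s3),
    by clear h h7 h3; omega, by linarith, by linarith, by linarith, by linarith, ?_⟩
  refine ⟨a64, 1764 * a42 + 1024 * a32 + 784 * a28 + 256 * a16 + 196 * a14 + 144 * a12 + 64 * a8 + 36 * a6 + (100 * a10 + 400 * a20),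
    1 * a42 + 1 * a32 + 1 * a28 + 1 * a16 + 1 * a14 + 1 * a12 + 1 * a8 + 1 * a6 + s5,
    0 * a42 + 1 * a32 + 0 * a28 + 1 * a16 + 0 * a14 + 1 * a12 + 1 * a8 + 1 * a6 + (a10 + a20 + s7),
    0 * a42 + 1 * a32 + 1 * a28 + 1 * a16 + 1 * a14 + 0 * a12 + 1 * a8 + 0 * a6 + (a10 + a20 + s3),
    by clear h h7 h3; omega, by linarith, by linarith, by linarith, by linarith, ?_⟩
  refine ⟨a42, 1024 * a32 + 784 * a28 + 256 * a16 + 196 * a14 + 144 * a12 + 64 * a8 + 36 * a6 + (100 * a10 + 400 * a20),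
    1 * a32 + 1 * a28 + 1 * a16 + 1 * a14 + 1 * a12 + 1 * a8 + 1 * a6 + s5,
    1 * a32 + 0 * a28 + 1 * a16 + 0 * a14 + 1 * a12 + 1 * a8 + 1 * a6 + (a10 + a20 + s7),
    1 * a32 + 1 * a28 + 1 * a16 + 1 * a14 + 0 * a12 + 1 * a8 + 0 * a6 + (a10 + a20 + s3),
    by clear h h7 h3; omega, by linarith, by linarith, by linarith, by linarith, ?_⟩
  refine ⟨a32, 784 * a28 + 256 * a16 + 196 * a14 + 144 * a12 + 64 * a8 + 36 * a6 + (100 * a10 + 400 * a20),
    1 * a28 + 1 * a16 + 1 * a14 + 1 * a12 + 1 * a8 + 1 * a6 + s5,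
    0 * a28 + 1 * a16 + 0 * a14 + 1 * a12 + 1 * a8 + 1 * a6 + (a10 + a20 + s7),
    1 * a28 + 1 * a16 + 1 * a14 + 0 * a12 + 1 * a8 + 0 * a6 + (a10 + a20 + s3),
    by clear h h7 h3; omega, by linarith, by linarith, by linarith, by linarith, ?_⟩
  refine ⟨a28, 256 * a16 + 196 * a14 + 144 * a12 + 64 * a8 + 36 * a6 + (100 * a10 + 400 * a20),
    1 * a16 + 1 * a14 + 1 * a12 + 1 * a8 + 1 * a6 + s5,
    1 * a16 + 0 * a14 + 1 * a12 + 1 * a8 + 1 * a6 + (a10 + a20 + s7),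
    1 * a16 + 1 * a14 + 0 * a12 + 1 * a8 + 0 * a6 + (a10 + a20 + s3),
    by clear h h7 h3; omega, by linarith, by linarith, by linarith, by linarith, ?_⟩
  refine ⟨a16, 196 * a14 + 144 * a12 + 64 * a8 + 36 * a6 + (100 * a10 + 400 * a20),
    1 * a14 + 1 * a12 + 1 * a8 + 1 * a6 + s5,
    0 * a14 + 1 * a12 + 1 * a8 + 1 * a6 + (a10 + a20 + s7),
    1 * a14 + 0 * a12 + 1 * a8 + 0 * a6 + (a10 + a20 + s3),
    by clear h h7 h3; omega, by linarith, by linarith, by linarith, by linarith, ?_⟩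
  refine ⟨a14, 144 * a12 + 64 * a8 + 36 * a6 + (100 * a10 + 400 * a20),
    1 * a12 + 1 * a8 + 1 * a6 + s5,
    1 * a12 + 1 * a8 + 1 * a6 + (a10 + a20 + s7),
    0 * a12 + 1 * a8 + 0 * a6 + (a10 + a20 + s3),
    by clear h h7 h3; omega, by linarith, by linarith, by linarith, by linarith, ?_⟩
  refine ⟨a12, 64 * a8 + 36 * a6 + (100 * a10 + 400 * a20),
    1 * a8 + 1 * a6 + s5,
    1 * a8 + 1 * a6 + (a10 + a20 + s7),
    1 * a8 + 0 * a6 + (a10 + a20 + s3),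
    by clear h h7 h3; omega, by linarith, by linarith, by linarith, by linarith, ?_⟩
  refine ⟨a8, 36 * a6 + (100 * a10 + 400 * a20),
    1 * a6 + s5,
    1 * a6 + (a10 + a20 + s7),
    0 * a6 + (a10 + a20 + s3),
    by clear h h7 h3; omega, by linarith, by linarith, by linarith, by linarith, ?_⟩
  refine ⟨a6, (100 * a10 + 400 * a20),
    s5,
    (a10 + a20 + s7),
    (a10 + a20 + s3),
    by clear h h7 h3; omega, by linarith, by linarith, by linarith, by linarith, ?_⟩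
  exact ⟨a10, a20, by clear h h5 h3; omega, rfl, by clear h h5 h3; omega, by clear h h5 h7; omega⟩

end Cfsg.Agent.H834.T3
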