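import Mathlib
import Cfsg.Agent.H424.CentBound
import Cfsg.Agent.H686.CharKit
import Cfsg.Agent.H67.PCov

/-!
# Counting the faithful characters of degree prime to `p` of a perfect central extension (helper834, task 2535)

* `card_le_of_sum` : the refined version of `H424.CentBound.card_le_centralizer`;
* `card_over_le` : `π : L → X` with central kernel `⟨c⟩` of order two; at most `|C_X(x)|` irreducible characters of `L`
  of degree prime to `p` do not contain `c` in the kernel, `x` a `p`-element of `X`, `p` odd.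
-/

set_option autoImplicit false

namespace Cfsg.Agent.H834.T3

open Cfsg Cfsg.Agent.Characters Cfsg.Agent.H424.CentBound Cfsg.Agent.H686.CharKit

universe u

/-- Refined counting bound. -/
theorem card_le_of_sum {G : Type u} [Group G] [Finite G] {p : ℕ} [Fact p.Prime] {m : ℕ} {x : G} (hx : x ^ p ^ m = 1)
    (S : Finset (IrrCharacter G)) (hS : ∀ χ ∈ S, ¬ p ∣ charDegree (χ : G → ℂ)) {c : ℕ}
    (hc : ∀ k : ℕ, k.Coprime (Nat.card G) → ∑ χ ∈ S, ‖(χ : G → ℂ) (x ^ k)‖ ^ 2 ≤ (c : ℝ)) :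
    S.card ≤ c := by
  classical
  have := Fintype.ofFinite G
  have := Core.finite_irr (G := G)
  have := Fintype.ofFinite (IrrCharacter G)
  set n := Nat.card G with hn
  let X : Finset G := (Finset.range n).image (fun i => if i.Coprime n then x ^ i else x)
  have hn0 : 0 < n := Nat.card_pos
  have hmemX : ∀ g, g ∈ X ↔ ∃ k : ℕ, k.Coprime n ∧ g = x ^ k := by
    intro g
    rw [Finset.mem_image]
    constructor
    · rintro ⟨i, -, rfl⟩
      by_cases h : i.Coprime n
      · rw [if_pos h]; exact ⟨i, h, rfl⟩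
      · rw [if_neg h]; exact ⟨1, Nat.coprime_one_left n, (pow_one x).symm⟩
    · rintro ⟨k, hk, rfl⟩
      refine ⟨k % n, Finset.mem_range.2 (Nat.mod_lt _ hn0), ?_⟩
      have h1 : (k % n).Coprime n := by
        rw [Nat.Coprime, ← Nat.gcd_rec, Nat.gcd_comm]
        exact hk
      rw [if_pos h1]
      have h2 : x ^ n = 1 := pow_card_eq_one'
      exact (pow_eq_pow_mod k h2).symm
  have hXpow : ∀ g ∈ X, ∀ m : ℕ, m.Coprime (Nat.card G) → g ^ m ∈ X := by
    intro g hg k hk
    obtain ⟨j, hj, rfl⟩ := (hmemX g).1 hg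
    exact (hmemX _).2 ⟨j * k, Nat.Coprime.mul_left hj hk, (pow_mul x j k).symm⟩
  have hXne : X.Nonempty := ⟨x, (hmemX x).2 ⟨1, Nat.coprime_one_left n, (pow_one x).symm⟩⟩
  have h1 : ∀ χ ∈ S, (X.card : ℝ) ≤ ∑ g ∈ X, ‖(χ : G → ℂ) g‖ ^ 2 := by
    intro χ hχ
    have h2 := OddOrderCharacters.PF13.SumBound.card_le_sum_sq (G := G) ({χ} : Finset (IrrCharacter G))
      (fun χ => (χ : G → ℂ)) (fun i _ => ⟨i, 0, Core.isIrr_isCharacter i.2, Core.isCharacter_zero, by simp⟩)
      X hXpow ?_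
    · simpa using h2
    · intro g hg
      refine ⟨χ, Finset.mem_singleton_self χ, ?_⟩
      obtain ⟨j, hj, rfl⟩ := (hmemX g).1 hg
      refine apply_ne_zero (p := p) (Core.isIrr_isCharacter χ.2)
        (Blocks.Basic.irr_one_eq_charDegree χ.2) (hS χ hχ) (m := m) ?_
      rw [← pow_mul, mul_comm, pow_mul, hx, one_pow]
  have h2 : ∀ g ∈ X, ∑ χ ∈ S, ‖(χ : G → ℂ) g‖ ^ 2 ≤ (c : ℝ) := by
    intro g hg
    obtain ⟨j, hj, rfl⟩ := (hmemX g).1 hg
    exact hc j hj
  have h3 : (S.card : ℝ) * X.card ≤ X.card * (c : ℝ) := by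
    calc (S.card : ℝ) * X.card = ∑ χ ∈ S, (X.card : ℝ) := by
          rw [Finset.sum_const, nsmul_eq_mul]
      _ ≤ ∑ χ ∈ S, ∑ g ∈ X, ‖(χ : G → ℂ) g‖ ^ 2 := Finset.sum_le_sum h1
      _ = ∑ g ∈ X, ∑ χ ∈ S, ‖(χ : G → ℂ) g‖ ^ 2 := Finset.sum_comm
      _ ≤ ∑ g ∈ X, (c : ℝ) := Finset.sum_le_sum h2
      _ = X.card * (c : ℝ) := by
          rw [Finset.sum_const, nsmul_eq_mul]
  have hXpos : (0 : ℝ) < X.card := by exact_mod_cast hXne.card_pos
  have h4 : (S.card : ℝ) ≤ (c : ℝ) := by
    rw [mul_comm] at h3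
    exact le_of_mul_le_mul_left h3 hXpos
  exact_mod_cast h4

section

variable {L : Type u} [Group L] [Finite L] (Z : Subgroup L) [Z.Normal]

/-- the sum over the characters not containing `Z` in the kernel -/
theorem sum_not_le [Fintype (IrrCharacter L)] [DecidablePred fun χ : IrrCharacter L => Z ≤ chKer χ] (g : L) :
    ∑ χ : IrrCharacter L with ¬ Z ≤ chKer χ, Complex.normSq ((χ : L → ℂ) g) =
      (Nat.card (Subgroup.centralizer ({g} : Set L)) : ℝ) -
        (Nat.card (Subgroup.centralizer ({(g : L ⧸ Z)} : Set (L ⧸ Z))) : ℝ) := by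
  classical
  have : Finite (IrrCharacter (L ⧸ Z)) := Core.finite_irr
  let _ := Fintype.ofFinite (IrrCharacter (L ⧸ Z))
  have h1 := sum_normSq (G := L) g
  have h2 := sum_normSq (G := L ⧸ Z) (g : L ⧸ Z)
  have h3 : ∑ χ : IrrCharacter L with Z ≤ chKer χ, Complex.normSq ((χ : L → ℂ) g) =
      ∑ ψ : IrrCharacter (L ⧸ Z), Complex.normSq ((ψ : L ⧸ Z → ℂ) (g : L ⧸ Z)) := by
    rw [← Finset.sum_subtype_eq_sum_filter]
    rw [Finset.subtype_univ]
    rw [← (inflEquiv Z).sum_comp]
    rfl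
  have h4 := Finset.sum_filter_add_sum_filter_not Finset.univ (fun χ : IrrCharacter L => Z ≤ chKer χ)
    (fun χ => Complex.normSq ((χ : L → ℂ) g))
  rw [h3, h2, h1] at h4
  linarith

/-- the centralizer in an extension with kernel of order two -/
theorem card_centralizer_le {X : Type*} [Group X] [Finite X] (π : L →* X) (g : L) :
    Nat.card (Subgroup.centralizer ({g} : Set L)) ≤
      Nat.card π.ker * Nat.card (Subgroup.centralizer ({π g} : Set X)) := by
  classical
  let f : Subgroup.centralizer ({g} : Set L) →* Subgroup.centralizer ({π g} : Set X) :=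
    (π.comp (Subgroup.centralizer ({g} : Set L)).subtype).codRestrict _ (by
      rintro ⟨x, hx⟩
      rw [Subgroup.mem_centralizer_singleton_iff] at hx ⊢
      show π x * π g = π g * π x
      rw [← map_mul, hx, map_mul])
  have h1 := Subgroup.card_eq_card_quotient_mul_card_subgroup f.ker
  have h2 : Nat.card (Subgroup.centralizer ({g} : Set L) ⧸ f.ker) ≤
      Nat.card (Subgroup.centralizer ({π g} : Set X)) :=
    Nat.card_le_card_of_injective _ (QuotientGroup.kerLift_injective f)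
  have h3 : Nat.card f.ker ≤ Nat.card π.ker := by
    refine Nat.card_le_card_of_injective (fun x : f.ker => (⟨(x.1 : L), congrArg Subtype.val x.2⟩ : π.ker)) ?_
    intro a b hab
    have h : ((a.1 : Subgroup.centralizer ({g} : Set L)) : L) = ((b.1 : Subgroup.centralizer ({g} : Set L)) : L) :=
      congrArg (fun z : π.ker => (z : L)) hab
    exact Subtype.ext (Subtype.ext h)
  rw [h1, mul_comm]
  exact Nat.mul_le_mul h3 h2

end

/-- `|C_{L/ker}(g)| = |C_X(π g)|` -/
theorem card_centralizer_quot {L : Type u} [Group L] {X : Type*} [Group X] {π : L →* X}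
    (hπ : Function.Surjective π) (g : L) :
    Nat.card (Subgroup.centralizer ({(g : L ⧸ π.ker)} : Set (L ⧸ π.ker))) =
      Nat.card (Subgroup.centralizer ({π g} : Set X)) := by
  let e : (L ⧸ π.ker) ≃* X := QuotientGroup.quotientKerEquivOfSurjective π hπ
  have he : e (g : L ⧸ π.ker) = π g := rfl
  refine Nat.card_congr (e.toEquiv.subtypeEquiv fun a => ?_)
  show a ∈ Subgroup.centralizer ({(g : L ⧸ π.ker)} : Set (L ⧸ π.ker)) ↔ e a ∈ Subgroup.centralizer ({π g} : Set X)
  rw [Subgroup.mem_centralizer_singleton_iff, Subgroup.mem_centralizer_singleton_iff, ← he, ← map_mul, ← map_mul]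
  exact e.injective.eq_iff.symm

/-- `π : L → X` with kernel of order two, `x` a `p`-element of `X`, `p` odd: at most `|C_X(x)|` irreducible characters
of `L` of degree prime to `p` do not contain the kernel of `π` in their kernel. -/
theorem card_over_le {L : Type u} [Group L] [Finite L] {X : Type*} [Group X] [Finite X] {π : L →* X}
    (hπ : Function.Surjective π) (hker : Nat.card π.ker = 2) {p m : ℕ} [hp : Fact p.Prime] (hp2 : p ≠ 2) {x : X}
    (hx : x ^ p ^ m = 1) (S : Finset (IrrCharacter L)) (hS : ∀ χ ∈ S, ¬ p ∣ charDegree (χ : L → ℂ))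
    (hSk : ∀ χ ∈ S, ¬ π.ker ≤ chKer χ) : S.card ≤ Nat.card (Subgroup.centralizer ({x} : Set X)) := by
  classical
  have := Core.finite_irr (G := L)
  have := Fintype.ofFinite (IrrCharacter L)
  obtain ⟨y₀, hy₀⟩ := hπ x
  have hodd : Odd (p ^ m) := (hp.out.odd_of_ne_two hp2).pow
  obtain ⟨t, ht⟩ := hodd
  have hk2 : ∀ z ∈ π.ker, z ^ 2 = 1 := by
    intro z hz
    have h1 := pow_card_eq_one' (x := (⟨z, hz⟩ : π.ker))
    rw [hker] at h1
    exact congrArg Subtype.val h1
  set y := y₀ ^ (p ^ m + 1) with hy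
  have hπy : π y = x := by rw [hy, map_pow, hy₀, pow_succ, hx, one_mul]
  have hyp : y ^ p ^ m = 1 := by
    rw [hy, ← pow_mul, mul_comm, pow_mul, show p ^ m + 1 = 2 * (t + 1) by omega, pow_mul (y₀ ^ p ^ m)]
    rw [hk2 (y₀ ^ p ^ m) (by rw [MonoidHom.mem_ker, map_pow, hy₀, hx]), one_pow]
  refine card_le_of_sum hyp S hS fun k hk => ?_
  have h1 : ∑ χ ∈ S, ‖(χ : L → ℂ) (y ^ k)‖ ^ 2 ≤
      ∑ χ : IrrCharacter L with ¬ π.ker ≤ chKer χ, Complex.normSq ((χ : L → ℂ) (y ^ k)) := by
    simp only [Complex.normSq_eq_norm_sq]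
    refine Finset.sum_le_sum_of_subset_of_nonneg (fun χ hχ => ?_) fun _ _ _ => by positivity
    exact Finset.mem_filter.2 ⟨Finset.mem_univ _, hSk χ hχ⟩
  rw [sum_not_le, card_centralizer_quot hπ] at h1
  have h2 := card_centralizer_le π (y ^ k)
  rw [hker] at h2
  have h3 : Nat.card (Subgroup.centralizer ({π (y ^ k)} : Set X)) = Nat.card (Subgroup.centralizer ({x} : Set X)) := by
    rw [map_pow, hπy, S0861.centralizer_pow_eq (n := Nat.card X) pow_card_eq_one']
    exact hk.coprime_dvd_right (Subgroup.card_dvd_of_surjective π hπ)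
  rw [h3] at h1 h2
  have h4 : (Nat.card (Subgroup.centralizer ({y ^ k} : Set L)) : ℝ) ≤
      2 * (Nat.card (Subgroup.centralizer ({x} : Set X)) : ℝ) := by exact_mod_cast h2
  linarith

end Cfsg.Agent.H834.T3
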